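import Cfsg.Agent.GLTwoThree.MEleven
import Cfsg.Agent.GLTwoThree.EnumBig.Upper
import Cfsg.Agent.GLTwoThree.EnumSmall.Upper
import Cfsg.Agent.SylowToolkit.PermRep
import Mathlib

/-!
At order 7920 the group is determined: its generators satisfy relations whose coset enumeration
over the involution centralizer has 165 cosets.
-/

set_option autoImplicit false

namespace CfsgLib.GLTwoThree

open Cfsg CfsgLib.CosetEnum

universe u v

variable {G : Type u} [Group G] {t : G} {ι : M23 →* G}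

/-- The generators as letters. -/
def letters (ι : M23 →* G) (U : M23) (x : G) (i : ℕ) : G :=
  if i % 2 = 0 then ([ι fM, ι rM, ι U, x][i / 2]?).getD 1
  else (([ι fM, ι rM, ι U, x][i / 2]?).getD 1)⁻¹

theorem letters_inv (ι : M23 →* G) (U : M23) (x : G) (i : ℕ) :
    letters ι U x (i ^^^ 1) = (letters ι U x i)⁻¹ := by
  have h : (i ^^^ 1) / 2 = i / 2 := by
    apply Nat.eq_of_testBit_eq
    intro j
    rw [Nat.testBit_div_two, Nat.testBit_div_two, Nat.testBit_xor, Nat.testBit_one_eq_true_iff_self_eq_zero.not.mpr (Nat.succ_ne_zero j) |> Bool.eq_false_iff.mpr]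
    simp
  have h2 : (i ^^^ 1) % 2 = 1 - i % 2 := by
    have h1 : (i ^^^ 1).testBit 0 = !(i.testBit 0) := by
      rw [Nat.testBit_xor, show Nat.testBit 1 0 = true from rfl, Bool.xor_true]
    simp only [Nat.testBit_zero] at h1
    rcases Nat.mod_two_eq_zero_or_one i with e | e <;>
      rcases Nat.mod_two_eq_zero_or_one (i ^^^ 1) with e' | e' <;> simp [e, e'] at h1 ⊢
  rcases Nat.mod_two_eq_zero_or_one i with e | e <;> simp [letters, h, h2, e]

/-- The common relators, up to the last relator of GL(2,3). -/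
def baseRels : List (List ℕ) :=
  [[0, 0, 0, 0, 0, 0, 0, 0], [2, 2], [2, 0, 2, 1, 1, 1], [4, 4, 4],
    [0, 0, 0, 0, 4, 1, 1, 1, 1, 5], [2, 4, 2, 4], [6, 6, 6], [6, 0, 0, 0, 0, 7, 2],
    [6, 2, 7, 3, 1, 1, 1, 1], [2, 0, 0, 6, 2, 0, 0, 6],
    [6, 4, 7, 0, 6, 4, 7, 1, 6, 5, 7, 0, 6, 5, 7, 1],
    [0, 0, 6, 4, 7, 1, 1, 0, 6, 5, 7, 1, 6, 5, 7], [2, 6, 4, 7, 2, 6, 5, 7]]

/-- The relations satisfied by the generators. -/
structure Rel (t : G) (ι : M23 →* G) (U : M23) (x : G) : Prop where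
  cube : x ^ 3 = 1
  map_t : x * t * x⁻¹ = ι rM
  map_r : x * ι rM * x⁻¹ = t * ι rM
  inverted : ι aM * x * (ι aM * x) = 1
  planar : Planar t ι (x * ι U * x⁻¹)

theorem letters_eq (ι : M23 →* G) (U : M23) (x : G) :
    letters ι U x 0 = ι fM ∧ letters ι U x 1 = (ι fM)⁻¹ ∧ letters ι U x 2 = ι rM ∧
    letters ι U x 3 = (ι rM)⁻¹ ∧ letters ι U x 4 = ι U ∧ letters ι U x 5 = (ι U)⁻¹ ∧
    letters ι U x 6 = x ∧ letters ι U x 7 = x⁻¹ := by
  simp [letters]

theorem fM_eight : fM ^ 8 = 1 ∧ rM * rM = 1 ∧ rM * fM * rM * fM⁻¹ * fM⁻¹ * fM⁻¹ = 1 ∧ rM * (fM * fM) = aM := by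
  decide +kernel

variable [Finite G]

theorem Rel.base (h : Hyp t ι) {U : M23} {x : G} (hR : Rel t ι U x)
    (hU : U * U * U = 1 ∧ fM ^ 4 * U * (fM ^ 4)⁻¹ * U⁻¹ = 1 ∧ rM * U * rM * U = 1) :
    ∀ w ∈ baseRels, gword (letters ι U x) w = 1 := by
  obtain ⟨l0, l1, l2, l3, l4, l5, l6, l7⟩ := letters_eq ι U x
  obtain ⟨e8, err, erf, ea⟩ := fM_eight
  obtain ⟨hc, hne, hit, hfix, hcomm, htwo⟩ := hR.planar
  have hF4 : ι fM * ι fM * ι fM * ι fM = t := by
    rw [← map_mul, ← map_mul, ← map_mul, show fM * fM * fM * fM = fM ^ 4 by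
      rw [pow_succ, pow_succ, pow_two], facts.2.2.1, h.map_z]
  have hRR : (ι rM)⁻¹ = ι rM := inv_eq_of_mul_eq_one_right (by rw [← map_mul, err, map_one])
  intro w hw
  simp only [baseRels, List.mem_cons, List.not_mem_nil, or_false] at hw
  rcases hw with rfl | rfl | rfl | rfl | rfl | rfl | rfl | rfl | rfl | rfl | rfl | rfl | rfl <;>
    simp only [gword, List.map_cons, List.map_nil, List.prod_cons, List.prod_nil, mul_one,
      l0, l1, l2, l3, l4, l5, l6, l7]
  · simp only [← mul_assoc, ← map_mul]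
    rw [← map_one ι]
    exact congrArg ι (by rw [← e8]; simp only [pow_succ, pow_zero, one_mul])
  · rw [← map_mul, err, map_one]
  · simp only [← mul_assoc, ← map_inv, ← map_mul]
    rw [← map_one ι]; exact congrArg ι erf
  · simp only [← mul_assoc, ← map_mul]
    rw [← map_one ι]; exact congrArg ι hU.1
  · simp only [← mul_assoc, ← map_inv, ← map_mul]
    rw [← map_one ι]
    exact congrArg ι (by rw [← hU.2.1]; simp only [pow_succ, pow_zero, one_mul]; group)
  · simp only [← mul_assoc, ← map_mul]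
    rw [← map_one ι]; exact congrArg ι hU.2.2
  · rw [← mul_assoc]; simpa [pow_succ] using hR.cube
  · calc x * (ι fM * (ι fM * (ι fM * (ι fM * (x⁻¹ * ι rM)))))
        = x * (ι fM * ι fM * ι fM * ι fM) * x⁻¹ * ι rM := by group
      _ = 1 := by rw [hF4, hR.map_t, ← map_mul, err, map_one]
  · calc x * (ι rM * (x⁻¹ * ((ι rM)⁻¹ * ((ι fM)⁻¹ * ((ι fM)⁻¹ * ((ι fM)⁻¹ * (ι fM)⁻¹))))))
        = x * ι rM * x⁻¹ * ((ι fM * ι fM * ι fM * ι fM) * ι rM)⁻¹ := by group
      _ = 1 := by rw [hF4, hR.map_r, mul_inv_cancel]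
  · have := hR.inverted
    rw [← ea, map_mul, map_mul] at this
    simpa [mul_assoc] using this
  · have e := hcomm.eq
    generalize hp : x * ι U * x⁻¹ = p at e
    calc x * (ι U * (x⁻¹ * (ι fM * (x * (ι U * (x⁻¹ * ((ι fM)⁻¹ * (x * ((ι U)⁻¹ * (x⁻¹ * (ι fM *
          (x * ((ι U)⁻¹ * (x⁻¹ * (ι fM)⁻¹))))))))))))))
        = (x * ι U * x⁻¹) * (ι fM * (x * ι U * x⁻¹) * (ι fM)⁻¹) * (x * ι U * x⁻¹)⁻¹ *
            (ι fM * (x * ι U * x⁻¹) * (ι fM)⁻¹)⁻¹ := by group
      _ = 1 := by rw [hp, e]; group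
  · generalize hp : x * ι U * x⁻¹ = p at htwo
    calc ι fM * (ι fM * (x * (ι U * (x⁻¹ * ((ι fM)⁻¹ * ((ι fM)⁻¹ * (ι fM * (x * ((ι U)⁻¹ *
          (x⁻¹ * ((ι fM)⁻¹ * (x * ((ι U)⁻¹ * x⁻¹)))))))))))))
        = ι fM * (ι fM * (x * ι U * x⁻¹) * (ι fM)⁻¹) * (ι fM)⁻¹ *
            ((x * ι U * x⁻¹) * (ι fM * (x * ι U * x⁻¹) * (ι fM)⁻¹))⁻¹ := by group
      _ = 1 := by rw [hp, htwo, mul_inv_cancel]
  · generalize hp : x * ι U * x⁻¹ = p at hfix
    calc ι rM * (x * (ι U * (x⁻¹ * (ι rM * (x * ((ι U)⁻¹ * x⁻¹))))))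
        = ι rM * (x * ι U * x⁻¹) * ι rM * (x * ι U * x⁻¹)⁻¹ := by group
      _ = 1 := by
        rw [hp]
        conv_lhs => arg 1; arg 2; rw [← hRR]
        rw [hfix, mul_inv_cancel]

/-- The generators exist at order 7920. -/
theorem exists_rel [IsSimpleGroup G] (h : Hyp t ι) (hN : Nat.card G = 7920) :
    ∃ (ι' : M23 →* G) (U : M23) (x : G), Hyp t ι' ∧ (U = u₀M ∨ U = u₁M) ∧ Rel t ι' U x := by
  obtain ⟨ι, p, h, hP⟩ := exists_planar h hN
  obtain ⟨htt, ht1⟩ := orderOf_eq h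
  obtain ⟨haa, hara, -, -, hzr1, hzr2, -, hrz⟩ := frame_facts
  obtain ⟨hr2, hr1⟩ : rM * rM = 1 ∧ rM ≠ 1 :=
    ⟨center_facts.2.2.2.2.1, center_facts.2.2.2.2.2.1⟩
  set R := ι rM with hRdef
  have hRR : R * R = 1 := by rw [hRdef, ← map_mul, hr2, map_one]
  have hR1 : R ≠ 1 := fun e => hr1 (h.inj (e.trans (map_one ι).symm))
  have hRne : R ≠ t := fun e => hrz (h.inj (e.trans h.map_z.symm))
  have hRt : R * t = t * R := h.comm_t rM
  have htR1 : t * R ≠ 1 := fun e => hRne (mul_left_cancel (e.trans htt.symm))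
  -- a swap of `t` and `R`
  obtain ⟨g, hg⟩ := isConj_iff.mp (h.isConj_invol hr2 hr1)
  set s' := g⁻¹ * t * g with hs'
  have hs'2 : s' * s' = 1 := by
    rw [hs', show g⁻¹ * t * g * (g⁻¹ * t * g) = g⁻¹ * (t * t) * g by group, htt, mul_one,
      inv_mul_cancel]
  obtain ⟨m, hm⟩ := h.mem s' (by
    have e : t = g⁻¹ * R * g := by rw [hRdef, ← hg]; group
    calc s' * t = g⁻¹ * t * g * (g⁻¹ * R * g) := by rw [hs']; nth_rewrite 2 [e]; rfl
      _ = g⁻¹ * (t * R) * g := by group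
      _ = g⁻¹ * (R * t) * g := by rw [hRt]
      _ = g⁻¹ * R * g * (g⁻¹ * t * g) := by group
      _ = t * s' := by rw [← e, ← hs'])
  have hm2 : m * m = 1 := h.inj (by rw [map_mul, hm, hs'2, map_one])
  have hm1 : m ≠ 1 := fun e => ht1 (by
    rw [e, map_one, hs'] at hm
    have : g⁻¹ * t * g⁻¹⁻¹ = 1 := by rw [inv_inv, ← hm]
    exact conj_eq_one_iff.mp this)
  have hmz : m ≠ zM := fun e => hRne (by
    rw [e, h.map_z, hs'] at hm
    calc R = g * t * g⁻¹ := hg.symm
      _ = g * (g⁻¹ * t * g) * g⁻¹ := by rw [← hm]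
      _ = t := by group)
  obtain ⟨n, hn⟩ : ∃ n : M23, n * rM * n⁻¹ = m := by
    rcases invol_cases m.val (by rw [← Units.val_mul, hm2, Units.val_one]) with e | e | ⟨X, hX, e⟩
    · exact absurd (Units.ext e) hm1
    · exact absurd (Units.ext e) hmz
    rcases invol_cases rM.val (by rw [← Units.val_mul, hr2, Units.val_one]) with e' | e' | ⟨Y, hY, e'⟩
    · exact absurd (Units.ext e') hr1
    · exact absurd (Units.ext e') hrz
    set X' := Matrix.GeneralLinearGroup.mkOfDetNeZero X hX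
    set Y' := Matrix.GeneralLinearGroup.mkOfDetNeZero Y hY
    have e1 : X' * sM = m * X' := Units.ext e
    have e2 : Y' * sM = rM * Y' := Units.ext e'
    refine ⟨X' * Y'⁻¹, ?_⟩
    calc X' * Y'⁻¹ * rM * (X' * Y'⁻¹)⁻¹ = X' * (Y'⁻¹ * (rM * Y')) * X'⁻¹ := by group
      _ = X' * sM * X'⁻¹ := by rw [← e2, inv_mul_cancel_left]
      _ = m := by rw [e1, mul_inv_cancel_right]
  set y := g * ι n with hy
  have hyt : y * t * y⁻¹ = R := by
    rw [hy, show g * ι n * t * (g * ι n)⁻¹ = g * (ι n * t * (ι n)⁻¹) * g⁻¹ by group, h.comm_t,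
      mul_inv_cancel_right, hg]
  have hyR : y * R * y⁻¹ = t := by
    rw [hy, show g * ι n * R * (g * ι n)⁻¹ = g * (ι n * R * (ι n)⁻¹) * g⁻¹ by group, hRdef,
      ← map_inv, ← map_mul, ← map_mul, hn, hm, hs']
    group
  set a := ι aM with hadef
  have haa' : a * a = 1 := by rw [hadef, ← map_mul, haa, map_one]
  have hat : a * t * a⁻¹ = t := by rw [hadef, h.comm_t, mul_inv_cancel_right]
  have haR : a * R * a⁻¹ = t * R := by
    rw [inv_eq_of_mul_eq_one_right haa', hadef, hRdef, ← map_mul, ← map_mul, hara, map_mul, h.map_z]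
  -- any element with the action of a three-cycle has order three
  have hV : ∀ {v : G}, v * t * v⁻¹ = t → v * R * v⁻¹ = R → v = 1 ∨ v = t ∨ v = R ∨ v = t * R := by
    intro v h1 h2
    obtain ⟨k, rfl⟩ := h.mem v (mul_inv_eq_iff_eq_mul.mp h1)
    have hk : k * rM = rM * k := h.inj (by
      rw [map_mul, map_mul]; exact mul_inv_eq_iff_eq_mul.mp h2)
    rcases centralizer_r k.val (det_ne k) (by rw [← Units.val_mul, hk, Units.val_mul]) with
      e | e | e | e
    · exact .inl (by rw [show k = 1 from Units.ext e, map_one])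
    · exact .inr (.inl (by rw [show k = zM from Units.ext e, h.map_z]))
    · exact .inr (.inr (.inl (by rw [show k = rM from Units.ext e])))
    · exact .inr (.inr (.inr (by rw [show k = zM * rM from Units.ext e, map_mul, h.map_z])))
  have hcyc : ∀ {w : G}, w * t * w⁻¹ = R → w * R * w⁻¹ = t * R →
      w * (t * R) * w⁻¹ = t ∧ w ^ 3 = 1 := by
    intro w h1 h2
    have h3 : w * (t * R) * w⁻¹ = t := by
      rw [← conj_mul, h1, h2, ← mul_assoc, hRt, mul_assoc, hRR, mul_one]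
    refine ⟨h3, ?_⟩
    have e1 : w ^ 3 * t * (w ^ 3)⁻¹ = t := by
      rw [show w ^ 3 * t * (w ^ 3)⁻¹ = w * (w * (w * t * w⁻¹) * w⁻¹) * w⁻¹ by
        simp only [pow_succ, pow_zero, one_mul]; group, h1, h2, h3]
    have e2 : w ^ 3 * R * (w ^ 3)⁻¹ = R := by
      rw [show w ^ 3 * R * (w ^ 3)⁻¹ = w * (w * (w * R * w⁻¹) * w⁻¹) * w⁻¹ by
        simp only [pow_succ, pow_zero, one_mul]; group, h2, h3, h1]
    have hfix : ∀ {v : G}, v = w ^ 3 → w * v * w⁻¹ = v := fun {v} hv => by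
      rw [hv]; exact mul_inv_eq_iff_eq_mul.mpr ((Commute.refl w).pow_right 3).eq
    rcases hV e1 e2 with e | e | e | e
    · exact e
    · exact absurd (h1.symm.trans (hfix e.symm)) hRne
    · exfalso
      have := h2.symm.trans (hfix e.symm)
      exact ht1 (mul_eq_right.mp this)
    · exfalso
      have := h3.symm.trans (hfix e.symm)
      exact hR1 (mul_eq_left.mp this.symm)
  set x₀ := y * a with hx₀
  have hx₀t : x₀ * t * x₀⁻¹ = R := by
    rw [hx₀, show y * a * t * (y * a)⁻¹ = y * (a * t * a⁻¹) * y⁻¹ by group, hat, hyt]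
  have hx₀R : x₀ * R * x₀⁻¹ = t * R := by
    rw [hx₀, show y * a * R * (y * a)⁻¹ = y * (a * R * a⁻¹) * y⁻¹ by group, haR, ← conj_mul, hyt,
      hyR, hRt]
  obtain ⟨hx₀tR, hx₀3⟩ := hcyc hx₀t hx₀R
  have hatR : a * (t * R) * a⁻¹ = R := by rw [← conj_mul, hat, haR, ← mul_assoc, htt, one_mul]
  set w := a * x₀ with hw
  have hwt : w * t * w⁻¹ = t * R := by
    rw [hw, show a * x₀ * t * (a * x₀)⁻¹ = a * (x₀ * t * x₀⁻¹) * a⁻¹ by group, hx₀t, haR]
  have hwR : w * R * w⁻¹ = R := by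
    rw [hw, show a * x₀ * R * (a * x₀)⁻¹ = a * (x₀ * R * x₀⁻¹) * a⁻¹ by group, hx₀R, hatR]
  have hwtR : w * (t * R) * w⁻¹ = t := by
    rw [← conj_mul, hwt, hwR, mul_assoc, hRR, mul_one]
  obtain ⟨x, hx3, hxt, hxR, hxa⟩ : ∃ x, x ^ 3 = 1 ∧ x * t * x⁻¹ = R ∧ x * R * x⁻¹ = t * R ∧
      a * x * (a * x) = 1 := by
    have e1 : w * w * t * (w * w)⁻¹ = t := by
      rw [show w * w * t * (w * w)⁻¹ = w * (w * t * w⁻¹) * w⁻¹ by group, hwt, hwtR]
    have e2 : w * w * R * (w * w)⁻¹ = R := by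
      rw [show w * w * R * (w * w)⁻¹ = w * (w * R * w⁻¹) * w⁻¹ by group, hwR, hwR]
    have hfix : w * (w * w) * w⁻¹ = w * w := by group
    rcases hV e1 e2 with e | e | e | e
    · exact ⟨x₀, hx₀3, hx₀t, hx₀R, e⟩
    · exfalso
      rw [e, hwt] at hfix
      exact hR1 (mul_eq_left.mp hfix)
    · have htRt : x₀⁻¹ * t * x₀ = t * R := by
        calc x₀⁻¹ * t * x₀ = x₀⁻¹ * (x₀ * (t * R) * x₀⁻¹) * x₀ := by rw [hx₀tR]
          _ = t * R := by group
      have h1 : x₀ * t * t * (x₀ * t)⁻¹ = R := by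
        rw [show x₀ * t * t * (x₀ * t)⁻¹ = x₀ * t * x₀⁻¹ by group, hx₀t]
      have h2 : x₀ * t * R * (x₀ * t)⁻¹ = t * R := by
        rw [show x₀ * t * R * (x₀ * t)⁻¹ = x₀ * (t * R * t⁻¹) * x₀⁻¹ by group,
          show t * R * t⁻¹ = R by rw [← hRt, mul_inv_cancel_right], hx₀R]
      refine ⟨x₀ * t, (hcyc h1 h2).2, h1, h2, ?_⟩
      calc a * (x₀ * t) * (a * (x₀ * t)) = w * w * (x₀⁻¹ * (a⁻¹ * t * a) * x₀) * t := by
            rw [hw]; group
        _ = R * (t * R) * t := by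
          rw [e, show a⁻¹ * t * a = t by rw [inv_eq_of_mul_eq_one_right haa']
                                         nth_rewrite 1 [← inv_eq_of_mul_eq_one_right haa']
                                         calc a⁻¹ * t * a = a⁻¹ * (a * t * a⁻¹) * a := by rw [hat]
                                           _ = t := by group, htRt]
        _ = 1 := by rw [← mul_assoc R, hRt, mul_assoc t, hRR, mul_one, htt]
    · exfalso
      rw [e, hwtR] at hfix
      exact hR1 (mul_eq_left.mp hfix.symm)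
  -- the root element in the centralizer of `t`
  obtain ⟨hp3, hp1, hpt, hpR, hpc, hp2⟩ := hP
  rw [← hRdef] at hpR
  have hxtR : x * (t * R) * x⁻¹ = t := (hcyc hxt hxR).1
  set v := x⁻¹ * p * x with hv
  have hvt : v * t = t * v := by
    have e : x⁻¹ * R * x = t := by rw [← hxt]; group
    calc v * t = x⁻¹ * p * x * (x⁻¹ * R * x) := by rw [hv, e]
      _ = x⁻¹ * (p * R) * x := by group
      _ = x⁻¹ * (R * p) * x := by rw [mul_inv_eq_iff_eq_mul.mp hpR]
      _ = x⁻¹ * R * x * (x⁻¹ * p * x) := by group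
      _ = t * v := by rw [e]
  obtain ⟨U, hU⟩ := h.mem v hvt
  have hRv : R * v * R * v = 1 := by
    have e : x⁻¹ * (t * R) * x = R := by rw [← hxR]; group
    have hi : t * R * p * (t * R) = p⁻¹ := by
      nth_rewrite 2 [show t * R = (t * R)⁻¹ from (inv_eq_of_mul_eq_one_right (by
        rw [← mul_assoc, mul_assoc t R t, hRt, ← mul_assoc, htt, one_mul, hRR])).symm]
      rw [show t * R * p * (t * R)⁻¹ = t * (R * p * R⁻¹) * t⁻¹ by group, hpR, hpt]
    calc R * v * R * v = x⁻¹ * (t * R * p * (t * R)) * p * x := by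
          rw [hv]; nth_rewrite 1 2 [← e]; group
      _ = 1 := by rw [hi]; group
  have hU3 : U * (U * U) = 1 := h.inj (by
    rw [map_mul, map_mul, map_one, hU, hv,
      show x⁻¹ * p * x * (x⁻¹ * p * x * (x⁻¹ * p * x)) = x⁻¹ * p ^ 3 * x by
        simp only [pow_succ, pow_zero, one_mul]; group, hp3, mul_one, inv_mul_cancel])
  have hUr : rM * U * rM * U = 1 := h.inj (by
    rw [map_mul, map_mul, map_mul, map_one, hU, ← hRdef, hRv])
  have hxU : x * ι U * x⁻¹ = p := by rw [hU, hv]; group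
  have hinvP : ∀ {U' : M23}, U' = U⁻¹ → Planar t ι (x * ι U' * x⁻¹) := by
    rintro _ rfl
    rw [map_inv, ← conj_inv, hxU]
    refine ⟨by rw [inv_pow, hp3, inv_one], inv_ne_one.mpr hp1, by rw [← conj_inv, hpt],
      by rw [← hRdef, ← conj_inv, hpR], ?_, ?_⟩
    · rw [← conj_inv]; exact hpc.inv_inv
    · rw [← conj_inv, ← conj_inv, hp2, mul_inv_rev, ← hpc.inv_inv.eq]
  have hres : ∀ {U' : M23}, Planar t ι (x * ι U' * x⁻¹) → (U' = u₀M ∨ U' = u₁M) →
      ∃ (ι' : M23 →* G) (U : M23) (x : G), Hyp t ι' ∧ (U = u₀M ∨ U = u₁M) ∧ Rel t ι' U x :=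
    fun {U'} hp hU' => ⟨ι, U', x, h, hU', hx3, hxt, hxR, hxa, hp⟩
  have hPU : Planar t ι (x * ι U * x⁻¹) := hxU.symm ▸ ⟨hp3, hp1, hpt, hpR, hpc, hp2⟩
  rcases roots_r U.val (by rw [← Units.val_mul, ← Units.val_mul, hU3, Units.val_one])
    (by rw [← Units.val_mul, ← Units.val_mul, ← Units.val_mul, hUr, Units.val_one]) with
    e | e | e | e | e
  · exact absurd (by rw [← hxU, show U = 1 from Units.ext e, map_one]; group) hp1
  · exact hres hPU (.inl (Units.ext e))
  · exact hres (hinvP (show u₀M = U⁻¹ by rw [show U = u₀M⁻¹ from Units.ext e, inv_inv])) (.inl rfl)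
  · exact hres hPU (.inr (Units.ext e))
  · exact hres (hinvP (show u₁M = U⁻¹ by rw [show U = u₁M⁻¹ from Units.ext e, inv_inv])) (.inr rfl)

/-- Extra relators for the two cases. -/
def extraBig : List ℕ := [4, 0, 0, 5, 3, 1]
/-- Extra relator. -/
def extraSmall : List ℕ := [4, 0, 0, 5, 1, 3]

theorem root_relators : (u₀M * u₀M * u₀M = 1 ∧ fM ^ 4 * u₀M * (fM ^ 4)⁻¹ * u₀M⁻¹ = 1 ∧
      rM * u₀M * rM * u₀M = 1) ∧
    (u₁M * u₁M * u₁M = 1 ∧ fM ^ 4 * u₁M * (fM ^ 4)⁻¹ * u₁M⁻¹ = 1 ∧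
      rM * u₁M * rM * u₁M = 1) ∧
    u₀M * fM * fM * u₀M⁻¹ * rM⁻¹ * fM⁻¹ = 1 ∧ u₁M * fM * fM * u₁M⁻¹ * fM⁻¹ * rM⁻¹ = 1 := by
  decide +kernel

theorem words_check :
    ((EnumBig.cert.words.take EnumBig.cert.nr).all fun w =>
        (extraBig :: baseRels).contains w || (extraBig :: baseRels).contains (w.reverse.map (· ^^^ 1))) = true ∧
    ((EnumSmall.cert.words.take EnumSmall.cert.nr).all fun w =>
        (extraSmall :: baseRels).contains w || (extraSmall :: baseRels).contains (w.reverse.map (· ^^^ 1))) = true ∧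
    ((EnumBig.cert.words.drop EnumBig.cert.nr).all fun w => [[0], [2], [4]].contains w) = true ∧
    ((EnumSmall.cert.words.drop EnumSmall.cert.nr).all fun w => [[0], [2], [4]].contains w) = true := by
  decide +kernel

omit [Finite G] in
/-- A bound on the generated subgroup from a certificate. -/
theorem card_closure_le (j : M23 →* G) (U : M23) (x : G) {C : CertData} {N : ℕ} (R : List (List ℕ))
    (hC : FactsChecked C.ep C.iv C.words C.nr N) (hn : 0 < C.n) (h0 : C.node 0 = 0)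
    (hrow : ∀ i < C.n, checkRow C.ep C.iv N C.L C.node C.T C.tf C.n i = true)
    (hiv : C.iv = fun y => y ^^^ 1) (hL : C.L = 8)
    (h1 : ((C.words.take C.nr).all fun w => R.contains w || R.contains (w.reverse.map (· ^^^ 1))) = true)
    (h2 : ((C.words.drop C.nr).all fun w => [[0], [2], [4]].contains w) = true)
    (hgen : ∀ m : M23, ∃ (k : Fin 16) (l : Fin 3), m = sylEl k * U ^ (l : ℕ))
    (hR : ∀ w ∈ R, gword (letters j U x) w = 1) :
    Finite (Subgroup.closure (Set.range j ∪ {x})) ∧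
      Nat.card (Subgroup.closure (Set.range j ∪ {x})) ≤ 48 * C.n := by
  have hg : ∀ y, letters j U x (C.iv y) = (letters j U x y)⁻¹ := fun y => by
    rw [hiv]; exact letters_inv j U x y
  obtain ⟨l0, l1, l2, l3, l4, l5, l6, l7⟩ := letters_eq j U x
  have hrel : ∀ (k : ℕ) (w : List ℕ), C.words[k]? = some w → k < C.nr →
      gword (letters j U x) w = 1 := by
    intro k w hk hlt
    have hw : w ∈ C.words.take C.nr :=
      List.mem_of_getElem? (i := k) (by rw [List.getElem?_take_of_lt hlt]; exact hk)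
    have := List.all_eq_true.mp h1 w hw
    rw [Bool.or_eq_true] at this
    rcases this with e | e
    · exact hR w (List.contains_iff_mem.mp e)
    · have e' := hR _ (List.contains_iff_mem.mp e)
      rw [gword_inverse _ _ (fun y => letters_inv j U x y), inv_eq_one] at e'
      exact e'
  have hsub : ∀ (k : ℕ) (w : List ℕ), C.words[k]? = some w →
      gword (letters j U x) w ∈ j.range := by
    intro k w hk
    rcases Nat.lt_or_ge k C.nr with hlt | hge
    · rw [hrel k w hk hlt]; exact one_mem _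
    · have hw : w ∈ C.words.drop C.nr :=
        List.mem_of_getElem? (i := k - C.nr) (by
          rw [List.getElem?_drop, Nat.add_sub_cancel' hge]; exact hk)
      have := List.contains_iff_mem.mp (List.all_eq_true.mp h2 w hw)
      simp only [List.mem_cons, List.not_mem_nil, or_false] at this
      rcases this with rfl | rfl | rfl <;>
        simp only [gword, List.map_cons, List.map_nil, List.prod_cons, List.prod_nil, mul_one,
          l0, l2, l4] <;> exact ⟨_, rfl⟩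
  obtain ⟨hle, hne⟩ := relIndex_le hC hn h0 hrow j.range (letters j U x) hg hrel hsub
  set K := Subgroup.closure {a | ∃ y < C.L, letters j U x y = a} with hK
  set K' := Subgroup.closure (Set.range j ∪ {x}) with hK'
  have hKK : K' ≤ K ⊔ j.range := by
    rw [hK', Subgroup.closure_le]
    rintro y (⟨m, rfl⟩ | rfl)
    · exact Subgroup.mem_sup_right ⟨m, rfl⟩
    · exact Subgroup.mem_sup_left (Subgroup.subset_closure ⟨6, by rw [hL]; norm_num, l6⟩)
  have hmemK : ∀ y < 8, letters j U x y ∈ K := fun y hy => Subgroup.subset_closure ⟨y, hL ▸ hy, rfl⟩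
  have hjK : j.range ≤ K := by
    rintro _ ⟨m, rfl⟩
    obtain ⟨k, l, rfl⟩ := hgen m
    rw [sylEl, map_mul, map_mul, map_pow, map_pow, map_pow, ← l0, ← l2, ← l4]
    exact mul_mem (mul_mem (pow_mem (hmemK 0 (by norm_num)) _) (pow_mem (hmemK 2 (by norm_num)) _))
      (pow_mem (hmemK 4 (by norm_num)) _)
  have hjfin : Finite j.range := (Set.finite_range j).to_subtype
  have hcard : Nat.card j.range ≤ 48 := by
    have := Nat.card_le_card_of_surjective j.rangeRestrict j.rangeRestrict_surjective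
    rwa [Nat.card_eq_fintype_card (α := M23), card_M23] at this
  have hmul : Nat.card (j.range.subgroupOf K) * (j.range.subgroupOf K).index = Nat.card K :=
    Subgroup.card_mul_index _
  rw [Nat.card_congr (Subgroup.subgroupOfEquivOfLe hjK).toEquiv,
    show (j.range.subgroupOf K).index = j.range.relIndex K from rfl] at hmul
  haveI hKfin : Finite K := Nat.finite_of_card_ne_zero (by
    rw [← hmul]; exact Nat.mul_ne_zero Nat.card_pos.ne' hne)
  have hle' : K' ≤ K := hKK.trans (sup_le le_rfl hjK)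
  refine ⟨Finite.of_injective _ (Subgroup.inclusion_injective hle'), ?_⟩
  calc Nat.card K' ≤ Nat.card K := Nat.card_le_card_of_injective _ (Subgroup.inclusion_injective hle')
    _ = Nat.card j.range * j.range.relIndex K := hmul.symm
    _ ≤ 48 * C.n := Nat.mul_le_mul hcard hle

theorem generated : (∀ m : M23, ∃ (k : Fin 16) (l : Fin 3), m = sylEl k * u₀M ^ (l : ℕ)) ∧
    (∀ m : M23, ∃ (k : Fin 16) (l : Fin 3), m = sylEl k * u₁M ^ (l : ℕ)) := by
  constructor <;> decide +kernel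

end CfsgLib.GLTwoThree
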