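import Cfsg.Agent.GLTwoThree.Simple
import Cfsg.Agent.GLTwoThree.Extraspecial
import Cfsg.Agent.M11Order.Three
import Mathlib

/-!
Generators and relations at order 7920.
-/

set_option autoImplicit false

namespace CfsgLib.GLTwoThree

open Cfsg CfsgLib.ExtremelyClosed
open scoped Pointwise

universe u

variable {G : Type u} [Group G] [Finite G] {t : G} {ι : M23 →* G}

/-- Multiplication by the determinant, an automorphism of GL(2,3). -/
def detMap : M23 →* M23 where
  toFun g := (if g.val.det = 1 then 1 else zM) * g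
  map_one' := by simp
  map_mul' g k := by
    have hc : ∀ m : M23, m * zM = zM * m := fun m => Units.ext (zM_central m.val)
    have hdet : ∀ v : ZMod 3, v ≠ 0 → v = 1 ∨ v = -1 := by decide
    have hn : (-1 : ZMod 3) ≠ 1 := by decide
    have hz : zM * zM = 1 := facts.1
    rw [Units.val_mul, Matrix.det_mul]
    rcases hdet _ (det_ne g) with e | e <;> rcases hdet _ (det_ne k) with e' | e' <;>
      simp only [e, e', mul_one, one_mul, mul_neg, neg_neg, hn, if_true, if_false]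
    · rw [← mul_assoc g, hc g, mul_assoc]
    · rw [mul_assoc]
    · rw [mul_assoc zM g, ← mul_assoc g, hc g, ← mul_assoc, ← mul_assoc, hz, one_mul]

theorem detMap_facts : detMap fM = zM * fM ∧ detMap rM = zM * rM ∧ detMap zM = zM ∧
    detMap sM = zM * sM := by
  refine ⟨?_, ?_, ?_, ?_⟩ <;> decide +kernel

theorem detMap_detMap (g : M23) : detMap (detMap g) = g := by
  have hdet : ∀ v : ZMod 3, v ≠ 0 → v = 1 ∨ v = -1 := by decide
  have hn : (-1 : ZMod 3) ≠ 1 := by decide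
  have hz1 : zM.val.det = 1 := by decide +kernel
  rcases hdet _ (det_ne g) with e | e <;>
    simp only [detMap, MonoidHom.coe_mk, OneHom.coe_mk, e, hn, if_true, if_false, one_mul,
      Units.val_mul, Matrix.det_mul, hz1]
  rw [← mul_assoc, facts.1, one_mul]

theorem Hyp.twist (h : Hyp t ι) : Hyp t (ι.comp detMap) := by
  obtain ⟨-, -, dz, ds⟩ := detMap_facts
  refine ⟨h.inj.comp (Function.LeftInverse.injective (g := detMap) detMap_detMap),
    by simp [dz, h.map_z], fun g hg => ?_, ?_⟩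
  · obtain ⟨m, hm⟩ := h.mem g hg
    exact ⟨detMap m, by simp [detMap_detMap, hm]⟩
  · obtain ⟨-, -, -, -, -, -, -, -, -, h2, h1, -, -, -⟩ := root_facts
    simp only [MonoidHom.comp_apply, ds]
    exact h.isConj_invol h2 h1

/-- An involution fixing `zM` and exchanging `rM` with `zM * rM`. -/
def aM : M23 := rM * (fM * fM)
/-- A root element for the frame `(zM, rM)`. -/
def u₀M : M23 := ⟨!![0, 1; 2, 2], !![2, 2; 1, 0], by decide, by decide⟩
/-- The other root element for that frame. -/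
def u₁M : M23 := ⟨!![1, 0; 1, 1], !![1, 0; 2, 1], by decide, by decide⟩

theorem frame_facts : aM * aM = 1 ∧ aM * rM * aM = zM * rM ∧ rM * zM = zM * rM ∧
    rM * (fM * fM) * rM⁻¹ = zM * (fM * fM) ∧ zM * rM ≠ 1 ∧ zM * rM * (zM * rM) = 1 ∧
    rM * fM * rM = fM * fM * fM ∧ rM ≠ zM := by
  decide +kernel

theorem centralizer_r : ∀ M : Matrix (Fin 2) (Fin 2) (ZMod 3), M.det ≠ 0 →
    M * rM.val = rM.val * M →
      M = 1 ∨ M = zM.val ∨ M = rM.val ∨ M = (zM * rM).val := by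
  decide +kernel

theorem roots_r : ∀ M : Matrix (Fin 2) (Fin 2) (ZMod 3), M * (M * M) = 1 →
    rM.val * M * rM.val * M = 1 →
      M = 1 ∨ M = u₀M.val ∨ M = (u₀M⁻¹).val ∨ M = u₁M.val ∨ M = (u₁M⁻¹).val := by
  decide +kernel

theorem cube_moved : ∀ M : Matrix (Fin 2) (Fin 2) (ZMod 3), M * (M * M) = 1 → M ≠ 1 →
    fM.val * M ≠ M * fM.val ∧ fM.val * M ≠ M * M * fM.val := by
  decide +kernel

/-- The elementary abelian 3-group normalized by the Sylow 2-subgroup, with the action. -/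
structure Planar (t : G) (ι : M23 →* G) (p : G) : Prop where
  cube : p ^ 3 = 1
  ne_one : p ≠ 1
  inv_t : t * p * t⁻¹ = p⁻¹
  fix_r : ι rM * p * (ι rM)⁻¹ = p
  comm : Commute p (ι fM * p * (ι fM)⁻¹)
  two : ι fM * (ι fM * p * (ι fM)⁻¹) * (ι fM)⁻¹ = p * (ι fM * p * (ι fM)⁻¹)

theorem exists_invariant_three [IsSimpleGroup G] (h : Hyp t ι) (hN : Nat.card G = 7920) :
    ∃ P : Subgroup G, Nat.card P = 9 ∧ IsMulCommutative P ∧
      (∀ k : Fin 16, ∀ x ∈ P, ι (sylEl k) * x * (ι (sylEl k))⁻¹ ∈ P) := by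
  haveI := Fintype.ofFinite G
  haveI : Fact (Nat.Prime 2) := ⟨Nat.prime_two⟩
  haveI : Fact (Nat.Prime 3) := ⟨by norm_num⟩
  obtain ⟨Tb⟩ := CfsgLib.M11Order.exists_table (G := G) hN
  obtain ⟨P₀⟩ : Nonempty (Sylow 3 G) := inferInstance
  obtain ⟨h9, hcomm⟩ := CfsgLib.M11Order.card_sylow_three_subgroup hN P₀
  have hn := CfsgLib.M11Order.card_normalizer_three hN Tb P₀
  set N := Subgroup.normalizer ((P₀ : Subgroup G) : Set G) with hNdef
  obtain ⟨S⟩ : Nonempty (Sylow 2 N) := inferInstance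
  have hS : Nat.card (S : Subgroup N) = 16 :=
    SylowToolkit.card_sylow_subgroup_eq (k := 4) (m := 9) (by rw [hn]; norm_num) (by norm_num) S
  set S' : Subgroup G := (S : Subgroup N).map N.subtype with hS'
  have hS'c : Nat.card S' = 16 :=
    (Nat.card_congr ((S : Subgroup N).equivMapOfInjective N.subtype N.subtype_injective).toEquiv).symm.trans hS
  set T : Subgroup G := sylT.map ι with hT
  have hTc : Nat.card T = 16 := by
    rw [← Nat.card_congr (sylT.equivMapOfInjective ι h.inj).toEquiv,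
      ← Nat.card_congr (Equiv.ofBijective (fun k => (⟨sylEl k, ⟨k, rfl⟩⟩ : sylT))
        ⟨fun i j hij => sylEl_facts.1 i j (congrArg Subtype.val hij), fun v => by
          obtain ⟨k, hk⟩ := v.2
          exact ⟨k, Subtype.ext hk⟩⟩), Nat.card_fin]
  have hmul : (Nat.card G).factorization 2 = 4 := by
    have := Sylow.card_eq_multiplicity (G := G) (p := 2) (default : Sylow 2 G)
    rw [SylowToolkit.card_sylow_subgroup_eq (k := 4) (m := 495) (by rw [hN]; norm_num) (by norm_num)] at this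
    exact (Nat.pow_right_injective le_rfl this).symm
  let Ps : Sylow 2 G := Sylow.ofCard S' (by rw [hS'c, hmul]; norm_num)
  let Pt : Sylow 2 G := Sylow.ofCard T (by rw [hTc, hmul]; norm_num)
  obtain ⟨g, hg⟩ := MulAction.exists_smul_eq G Ps Pt
  refine ⟨(P₀ : Subgroup G).map (MulAut.conj g).toMonoidHom, ?_, ?_, ?_⟩
  · rw [← h9]
    exact (Nat.card_congr ((P₀ : Subgroup G).equivMapOfInjective _ (MulAut.conj g).injective).toEquiv).symm
  · exact inferInstance
  · rintro k _ ⟨v, hv, rfl⟩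
    have hmem : ι (sylEl k) ∈ (Ps : Subgroup G).map (MulAut.conj g).toMonoidHom := by
      have e : ((g • Ps : Sylow 2 G) : Subgroup G) = T := by rw [hg]; rfl
      rw [Sylow.coe_subgroup_smul] at e
      change ι (sylEl k) ∈ (MulAut.conj g : MulAut G) • (Ps : Subgroup G)
      rw [e]
      exact ⟨_, ⟨k, rfl⟩, rfl⟩
    obtain ⟨_, ⟨w, -, rfl⟩, hw⟩ := hmem
    refine ⟨(w : G) * v * (w : G)⁻¹, (Subgroup.mem_normalizer_iff.mp w.2 v).mp hv, ?_⟩
    rw [← hw]
    simp only [MulEquiv.coe_toMonoidHom, MonoidHom.coe_coe, MulAut.conj_apply, Subgroup.coe_subtype]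
    group

theorem beta_facts : ∀ a b : Fin 3,
    (((a : ℕ) * ((a : ℕ) + (b : ℕ) * (b : ℕ))) % 3 = 2 ∧
      ((b : ℕ) * (a : ℕ) + (b : ℕ) * ((a : ℕ) + (b : ℕ) * (b : ℕ))) % 3 = 0) →
      (b : ℕ) ≠ 0 → (a : ℕ) = 1 := by
  decide

theorem exists_planar [IsSimpleGroup G] (h : Hyp t ι) (hN : Nat.card G = 7920) :
    ∃ (ι' : M23 →* G) (p : G), Hyp t ι' ∧ Planar t ι' p := by
  classical
  obtain ⟨P, hP9, hPc, hPinv⟩ := exists_invariant_three h hN
  obtain ⟨htt, ht1⟩ := orderOf_eq h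
  obtain ⟨-, -, -, -, -, hs1, hs8, hs4⟩ := center_facts.2.2.2.2
  set F := ι fM with hFdef
  set R := ι rM with hRdef
  have hnF : ∀ x ∈ P, F * x * F⁻¹ ∈ P := fun x hx => by
    have := hPinv 1 x hx
    rwa [hs1] at this
  have hnR : ∀ x ∈ P, R * x * R⁻¹ ∈ P := fun x hx => by
    have := hPinv 8 x hx
    rwa [hs8] at this
  have hnt : ∀ x ∈ P, t * x * t⁻¹ ∈ P := fun x hx => by
    have := hPinv 4 x hx
    rwa [hs4, h.map_z] at this
  have hodd : Odd (Nat.card P) := hP9 ▸ by decide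
  have hpo : ∀ {x}, x ∈ P → Odd (orderOf x) := fun hx =>
    hodd.of_dvd_nat (Subgroup.orderOf_dvd_natCard P hx)
  have hcomm : ∀ {x y : G}, x ∈ P → y ∈ P → Commute x y := fun {x y} hx hy => by
    have := hPc.1.1 ⟨x, hx⟩ ⟨y, hy⟩
    exact congrArg Subtype.val this
  have hRR : R * R = 1 := by rw [hRdef, ← map_mul, center_facts.2.2.2.2.1, map_one]
  have hR1 : R ≠ 1 := fun e => center_facts.2.2.2.2.2.1 (h.inj (e.trans (map_one ι).symm))
  have hRt : Commute R t := h.comm_t rM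
  have hFt : Commute F t := h.comm_t fM
  have hcR : IsConj t R := h.isConj_invol center_facts.2.2.2.2.1 center_facts.2.2.2.2.2.1
  have hcRt : IsConj t (t * R) := by
    rw [hRdef, ← h.map_z, ← map_mul, h.map_z]
    exact h.isConj_invol frame_facts.2.2.2.2.2.1 frame_facts.2.2.2.2.1
  -- the central involution inverts the group
  have hCt : ∀ x ∈ P, Commute x t → x = 1 := by
    intro x hx hxt
    by_contra hx1
    obtain ⟨m, hm⟩ := h.mem x hxt.eq
    have hm3 : m ^ 3 = 1 := h.inj (by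
      rw [map_pow, hm, map_one]; exact h.odd_cube hxt (hpo hx))
    have hm1 : m ≠ 1 := fun e => hx1 (by rw [← hm, e, map_one])
    have hdvd := h.card_inter (IsConj.refl t) hodd
    have hc3 : Nat.card (P ⊓ Subgroup.centralizer ({t} : Set G) : Subgroup G) = 3 := by
      refine ((Nat.dvd_prime (by norm_num)).mp hdvd).resolve_left fun e => hx1 ?_
      have hbot := Subgroup.eq_bot_of_card_eq _ e
      have hmem : x ∈ (P ⊓ Subgroup.centralizer ({t} : Set G) : Subgroup G) :=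
        ⟨hx, Subgroup.mem_centralizer_singleton_iff.mpr hxt⟩
      rwa [hbot, Subgroup.mem_bot] at hmem
    have hconj : Commute (F * x * F⁻¹) t := by
      have h' := hxt.map (MulAut.conj F).toMonoidHom
      simp only [MulEquiv.coe_toMonoidHom, MulAut.conj_apply] at h'
      rwa [hFt.eq, mul_inv_cancel_right] at h'
    have hmv := cube_moved m.val (by
      rw [← Units.val_mul, ← Units.val_mul, ← mul_assoc, ← pow_two, ← pow_succ, hm3, Units.val_one])
      (val_ne_one hm1)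
    rcases eq_of_le_three hc3 (c := x) (x := F * x * F⁻¹)
      ⟨hx, Subgroup.mem_centralizer_singleton_iff.mpr hxt⟩ hx1
      ⟨hnF x hx, Subgroup.mem_centralizer_singleton_iff.mpr hconj⟩ with e | e | e
    · exact hx1 (conj_eq_one_iff.mp e)
    · refine hmv.1 ?_
      rw [← Units.val_mul, ← Units.val_mul]
      refine congrArg Units.val (h.inj ?_)
      rw [map_mul, map_mul, hm]
      exact mul_inv_eq_iff_eq_mul.mp e
    · refine hmv.2 ?_
      rw [← Units.val_mul, ← Units.val_mul, ← Units.val_mul]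
      refine congrArg Units.val (h.inj ?_)
      rw [map_mul, map_mul, map_mul, hm, ← hFdef]
      rw [show x * x = x⁻¹ from eq_inv_of_mul_eq_one_left (by
        rw [← pow_two, ← pow_succ]; exact h.odd_cube hxt (hpo hx))]
      exact mul_inv_eq_iff_eq_mul.mp e
  have hinv : ∀ x ∈ P, t * x * t⁻¹ = x⁻¹ := by
    intro x hx
    obtain ⟨c, hc, hct, i, hi, hti, hxi, -⟩ := exists_split hodd htt hnt hx
    rw [hCt c hc hct.symm, one_mul] at hxi
    rw [hxi, hti]
  -- exponent three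
  have hP3 : ∀ x ∈ P, x ^ 3 = 1 := by
    intro x hx
    obtain ⟨c, hc, hcR', i, hi, hRi, hxi, -⟩ := exists_split hodd hRR hnR hx
    obtain ⟨ι₁, h₁⟩ := h.of_isConj hcR
    obtain ⟨ι₂, h₂⟩ := h.of_isConj hcRt
    have hic : Commute i (t * R) := by
      have e : t * R * i * (t * R)⁻¹ = i := by
        rw [show t * R * i * (t * R)⁻¹ = t * (R * i * R⁻¹) * t⁻¹ by group, hRi,
          hinv _ (inv_mem hi), inv_inv]
      exact (mul_inv_eq_iff_eq_mul.mp e).symm
    rw [hxi, (hcomm hc hi).mul_pow, h₁.odd_cube hcR'.symm (hpo hc), h₂.odd_cube hic (hpo hi), one_mul]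
  -- the element fixed by `R`
  obtain ⟨p, hpP, hp1, hpR⟩ : ∃ p ∈ P, p ≠ 1 ∧ R * p * R⁻¹ = p := by
    by_contra hne
    have hall : ∀ x ∈ P, Commute x (t * R) := by
      intro x hx
      obtain ⟨c, hc, hcR', i, hi, hRi, hxi, -⟩ := exists_split hodd hRR hnR hx
      have hc1 : c = 1 := by
        by_contra hc1
        exact hne ⟨c, hc, hc1, by rw [hcR'.eq, mul_inv_cancel_right]⟩
      rw [hc1, one_mul] at hxi
      subst hxi
      have e : t * R * x * (t * R)⁻¹ = x := by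
        rw [show t * R * x * (t * R)⁻¹ = t * (R * x * R⁻¹) * t⁻¹ by group, hRi,
          hinv _ (inv_mem hi), inv_inv]
      exact (mul_inv_eq_iff_eq_mul.mp e).symm
    have hd := h.card_inter hcRt hodd
    rw [inf_eq_left.mpr (fun x hx => Subgroup.mem_centralizer_singleton_iff.mpr (hall x hx)), hP9] at hd
    norm_num at hd
  have hp3 := hP3 p hpP
  set q := F * p * F⁻¹ with hq
  have hqP : q ∈ P := hnF p hpP
  have hq3 : q ^ 3 = 1 := hP3 q hqP
  have hpo3 : orderOf p = 3 := orderOf_eq_prime (hp := ⟨by norm_num⟩) hp3 hp1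
  have hp2R : R * (F * q * F⁻¹) * R⁻¹ = (F * q * F⁻¹)⁻¹ := by
    have e1 : R * (F * F) * R⁻¹ = t * (F * F) := by
      rw [hRdef, hFdef, ← map_inv, ← map_mul, ← map_mul, ← map_mul, frame_facts.2.2.2.1, map_mul,
        h.map_z]
    calc R * (F * q * F⁻¹) * R⁻¹ = (R * (F * F) * R⁻¹) * (R * p * R⁻¹) * (R * (F * F) * R⁻¹)⁻¹ := by
          rw [hq]; group
      _ = t * ((F * F) * p * (F * F)⁻¹) * t⁻¹ := by rw [e1, hpR]; group
      _ = (F * q * F⁻¹)⁻¹ := by
        rw [show (F * F) * p * (F * F)⁻¹ = F * q * F⁻¹ by rw [hq]; group]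
        exact hinv _ (hnF q hqP)
  -- coordinates
  have hqz : q ∉ Subgroup.zpowers p := by
    intro hm
    obtain ⟨n, hn⟩ := Subgroup.mem_zpowers_iff.mp hm
    have h2 : F * q * F⁻¹ = p ^ (n * n) := by
      conv_lhs => rw [← hn]
      rw [← conj_zpow, ← hq, ← hn, ← zpow_mul]
    have h3 : R * (F * q * F⁻¹) * R⁻¹ = F * q * F⁻¹ := by rw [h2, ← conj_zpow, hpR]
    have h1 : F * q * F⁻¹ = 1 := eq_one_of_eq_inv (hpo (hnF q hqP)) (hp2R.symm.trans h3)
    exact hp1 (conj_eq_one_iff.mp (conj_eq_one_iff.mp h1))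
  have hcoord : Function.Injective (fun v : Fin 3 × Fin 3 => p ^ (v.1 : ℕ) * q ^ (v.2 : ℕ)) := by
    rintro ⟨i, j⟩ ⟨i', j'⟩ e
    simp only at e
    have hqo : orderOf q = 3 := by
      rw [hq, show F * p * F⁻¹ = (MulAut.conj F).toMonoidHom p from rfl,
        orderOf_injective _ (MulAut.conj F).injective, hpo3]
    by_cases hjj : j = j'
    · subst hjj
      exact Prod.ext (Fin.ext (pow_injOn_Iio_orderOf (x := p) (by simp [hpo3, i.isLt])
        (by simp [hpo3, i'.isLt]) (mul_right_cancel e))) rfl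
    · exfalso
      refine hqz ?_
      have hmem : q ^ ((j : ℤ) - j') ∈ Subgroup.zpowers p := by
        have e2 : q ^ (j : ℕ) * (q ^ (j' : ℕ))⁻¹ = (p ^ (i : ℕ))⁻¹ * p ^ (i' : ℕ) := by
          rw [eq_inv_mul_iff_mul_eq, ← mul_assoc, e, mul_inv_cancel_right]
        rw [zpow_sub, zpow_natCast, zpow_natCast, e2]
        exact mul_mem (inv_mem (pow_mem (Subgroup.mem_zpowers p) _)) (pow_mem (Subgroup.mem_zpowers p) _)
      have hzq : q ∈ Subgroup.zpowers (q ^ ((j : ℤ) - j')) := by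
        have hne : (j : ℕ) ≠ (j' : ℕ) := fun e' => hjj (Fin.ext e')
        have hcases : ((j : ℤ) - j' = 1) ∨ ((j : ℤ) - j' = -1) ∨ ((j : ℤ) - j' = 2) ∨
            ((j : ℤ) - j' = -2) := by omega
        have h3' : q ^ (3 : ℤ) = 1 := by rw [show (3 : ℤ) = ((3 : ℕ) : ℤ) from rfl, zpow_natCast, hq3]
        rcases hcases with e' | e' | e' | e' <;> rw [e', Subgroup.mem_zpowers_iff]
        · exact ⟨1, by simp⟩
        · exact ⟨-1, by simp⟩
        · refine ⟨-1, ?_⟩
          rw [← zpow_mul, show (2 : ℤ) * -1 = -3 + 1 by norm_num, zpow_add, zpow_neg, h3', inv_one,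
            one_mul, zpow_one]
        · refine ⟨1, ?_⟩
          rw [zpow_one, show (-2 : ℤ) = -3 + 1 by norm_num, zpow_add, zpow_neg, h3', inv_one,
            one_mul, zpow_one]
      exact Subgroup.zpowers_le.mpr hmem hzq
  have hspan : ∀ v ∈ P, ∃ a b : Fin 3, v = p ^ (a : ℕ) * q ^ (b : ℕ) := by
    intro v hv
    have hbij : Function.Bijective (fun w : Fin 3 × Fin 3 => (⟨p ^ (w.1 : ℕ) * q ^ (w.2 : ℕ),
        mul_mem (pow_mem hpP _) (pow_mem hqP _)⟩ : P)) :=
      (Nat.bijective_iff_injective_and_card _).mpr ⟨fun a b e => hcoord (congrArg Subtype.val e), by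
        rw [Nat.card_prod, Nat.card_fin, hP9]⟩
    obtain ⟨⟨a, b⟩, e⟩ := hbij.2 ⟨v, hv⟩
    exact ⟨a, b, (congrArg Subtype.val e).symm⟩
  obtain ⟨a, b, hab⟩ := hspan _ (hnF q hqP)
  have hb0 : (b : ℕ) ≠ 0 := by
    intro e
    rw [e, pow_zero, mul_one] at hab
    have h3 : R * (F * q * F⁻¹) * R⁻¹ = F * q * F⁻¹ := by rw [hab, ← conj_pow, hpR]
    have h1 : F * q * F⁻¹ = 1 := eq_one_of_eq_inv (hpo (hnF q hqP)) (hp2R.symm.trans h3)
    exact hp1 (conj_eq_one_iff.mp (conj_eq_one_iff.mp h1))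
  have hstep : ∀ i j : ℕ, F * (p ^ i * q ^ j) * F⁻¹ = p ^ ((a : ℕ) * j) * q ^ (i + (b : ℕ) * j) := by
    intro i j
    rw [← conj_mul, ← conj_pow, ← conj_pow, ← hq, hab, ((hcomm hpP hqP).pow_pow _ _).mul_pow,
      ← pow_mul, ← pow_mul, ← mul_assoc, (((hcomm hqP hpP).pow_pow i ((a : ℕ) * j))).eq, mul_assoc,
      ← pow_add]
  have hf3 : F * (F * q * F⁻¹) * F⁻¹ = p ^ ((a : ℕ) * b) * q ^ ((a : ℕ) + (b : ℕ) * b) := by
    rw [hab, hstep]
  have hf4 : p⁻¹ = p ^ ((a : ℕ) * ((a : ℕ) + (b : ℕ) * b)) *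
      q ^ ((a : ℕ) * b + (b : ℕ) * ((a : ℕ) + (b : ℕ) * b)) := by
    rw [← hstep, ← hf3, hq]
    have e4 : F * F * (F * F) = t := by
      rw [hFdef, ← map_mul, ← map_mul, show fM * fM * (fM * fM) = fM ^ 4 by
        rw [pow_succ, pow_succ, pow_two, mul_assoc (fM * fM)], facts.2.2.1, h.map_z]
    calc p⁻¹ = t * p * t⁻¹ := (hinv p hpP).symm
      _ = _ := by rw [← e4]; group
  have hred : ∀ i j : ℕ, p ^ i * q ^ j = p ^ (i % 3) * q ^ (j % 3) := fun i j => by
    rw [pow_eq_pow_mod i hp3, pow_eq_pow_mod j hq3]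
  have hcmp : ((a : ℕ) * ((a : ℕ) + (b : ℕ) * b)) % 3 = 2 ∧
      ((b : ℕ) * a + (b : ℕ) * ((a : ℕ) + (b : ℕ) * b)) % 3 = 0 := by
    rw [hred] at hf4
    have e : (p ^ (2 : ℕ) * q ^ (0 : ℕ)) = p⁻¹ := by
      rw [pow_zero, mul_one]; exact eq_inv_of_mul_eq_one_left (by rw [← pow_succ, hp3])
    have := hcoord (a₁ := (⟨2, by norm_num⟩, ⟨0, by norm_num⟩))
      (a₂ := (⟨_, Nat.mod_lt _ (by norm_num)⟩, ⟨_, Nat.mod_lt _ (by norm_num)⟩)) (e.trans hf4)
    simp only [Prod.mk.injEq, Fin.mk.injEq] at this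
    refine ⟨this.1.symm, ?_⟩
    rw [mul_comm (b : ℕ) (a : ℕ)]
    exact this.2.symm
  have ha1 := beta_facts a b hcmp hb0
  rw [ha1, pow_one] at hab
  have hb : (b : ℕ) = 1 ∨ (b : ℕ) = 2 := by have := b.isLt; omega
  rcases hb with e | e
  · rw [e, pow_one] at hab
    exact ⟨ι, p, h, hp3, hp1, hinv p hpP, hpR, hcomm hpP hqP, hab⟩
  · -- twist by the determinant
    rw [e] at hab hf3
    rw [ha1] at hf3
    set p' := F * q * F⁻¹ with hp'
    have hp'P : p' ∈ P := hnF q hqP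
    obtain ⟨df, dr, -, -⟩ := detMap_facts
    have eF : (ι.comp detMap) fM = t * F := by rw [MonoidHom.comp_apply, df, map_mul, h.map_z]
    have eR : (ι.comp detMap) rM = t * R := by rw [MonoidHom.comp_apply, dr, map_mul, h.map_z]
    have hconjF : t * F * p' * (t * F)⁻¹ = p * q := by
      rw [show t * F * p' * (t * F)⁻¹ = t * (F * p' * F⁻¹) * t⁻¹ by group, hinv _ (hnF _ hp'P), hf3,
        mul_inv_rev, (((hcomm hqP hpP).pow_pow _ _).inv_inv).eq]
      congr 1
      · exact inv_eq_of_mul_eq_one_right (by rw [← pow_succ, show 1 * 2 + 1 = 3 by rfl, hp3])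
      · refine inv_eq_of_mul_eq_one_right ?_
        rw [← pow_succ, show 1 + 2 * 2 + 1 = 3 * 2 by rfl, pow_mul, hq3, one_pow]
    refine ⟨ι.comp detMap, p', h.twist, hP3 p' hp'P, fun e' => hp1
      (conj_eq_one_iff.mp (conj_eq_one_iff.mp e')), hinv p' hp'P, ?_, ?_, ?_⟩
    · rw [eR, show t * R * p' * (t * R)⁻¹ = t * (R * p' * R⁻¹) * t⁻¹ by group, hp2R,
        hinv _ (inv_mem hp'P), inv_inv]
    · rw [eF, hconjF]; exact hcomm hp'P (mul_mem hpP hqP)
    · rw [eF, hconjF, show t * F * (p * q) * (t * F)⁻¹ = t * (F * (p * q) * F⁻¹) * t⁻¹ by group,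
        show F * (p * q) * F⁻¹ = F * p * F⁻¹ * (F * q * F⁻¹) by group, ← hq, ← hp',
        hinv _ (mul_mem hqP hp'P), hab]
      have hpq : Commute p q := hcomm hpP hqP
      calc (q * (p * q ^ 2))⁻¹ = (p * q ^ 3)⁻¹ := by
            rw [← mul_assoc, ← hpq.eq, mul_assoc, ← pow_succ']
        _ = p * q ^ 2 * (p * q) := by
            rw [hq3, mul_one, show p * q ^ 2 * (p * q) = p * (q ^ 2 * p) * q by group,
              (hpq.symm.pow_left 2).eq, show p * (p * q ^ 2) * q = p * p * q ^ 3 by group, hq3,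
              mul_one]
            exact inv_eq_of_mul_eq_one_right (by rw [← mul_assoc, ← pow_two, ← pow_succ, hp3])

end CfsgLib.GLTwoThree
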