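import Cfsg.Agent.GLTwoThree.Amalgam
import Cfsg.Agent.GLTwoThree.SLThree
import Cfsg.Agent.Mathieu.Simple
import Cfsg.Agent.S1603
import Cfsg.Agent.Eq.Def_Spor_Mathieu
import Mathlib

/-!
A simple group of order 7920 with an involution centralizer GL(2,3) is the Mathieu group M11.
-/

set_option autoImplicit false

namespace CfsgLib.GLTwoThree

open Cfsg CfsgLib.CosetEnum
open scoped Pointwise

universe u

theorem four_dvd_of_involution {α : Type*} [Fintype α] [DecidableEq α] (σ : Equiv.Perm α)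
    (h2 : σ ^ 2 = 1) (hs : Equiv.Perm.sign σ = 1) : 4 ∣ σ.support.card := by
  have hall : ∀ a ∈ σ.cycleType, a = 2 := fun a ha => by
    have h := Nat.le_of_dvd (by norm_num) ((Equiv.Perm.dvd_of_mem_cycleType ha).trans (orderOf_dvd_of_pow_eq_one h2))
    have := Equiv.Perm.two_le_of_mem_cycleType ha
    omega
  have hrep : σ.cycleType = Multiset.replicate (Multiset.card σ.cycleType) 2 :=
    Multiset.eq_replicate.mpr ⟨rfl, hall⟩
  have hsum : σ.cycleType.sum = 2 * Multiset.card σ.cycleType := by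
    conv_lhs => rw [hrep]
    rw [Multiset.sum_replicate, smul_eq_mul, mul_comm]
  rw [← Equiv.Perm.sum_cycleType, hsum]
  rw [Equiv.Perm.sign_of_cycleType, hsum] at hs
  have hev : Even (Multiset.card σ.cycleType) := by
    by_contra hodd
    rw [Nat.not_even_iff_odd] at hodd
    rw [Odd.neg_one_pow ((even_two_mul _).add_odd hodd)] at hs
    exact absurd hs (by decide)
  obtain ⟨k, hk⟩ := hev
  exact ⟨k, by omega⟩

variable {G : Type u} [Group G] [Finite G] {t : G} {ι : M23 →* G}

set_option maxHeartbeats 600000 in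
/-- The generators generate. -/
theorem Rel.closure_eq_top [IsSimpleGroup G] (h : Hyp t ι) (hN : Nat.card G = 7920) {U : M23} {x : G}
    (hR : Rel t ι U x) : Subgroup.closure (Set.range ι ∪ {x}) = ⊤ := by
  classical
  haveI := Fintype.ofFinite G
  haveI : Fact (Nat.Prime 2) := ⟨Nat.prime_two⟩
  obtain ⟨htt, ht1⟩ := orderOf_eq h
  have h32 : ¬ 32 ∣ Nat.card G := by rw [hN]; norm_num
  set K := Subgroup.closure (Set.range ι ∪ {x}) with hK
  have hι : ∀ m, ι m ∈ K := fun m => Subgroup.subset_closure (Or.inl ⟨m, rfl⟩)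
  have hx : x ∈ K := Subgroup.subset_closure (Or.inr rfl)
  have hC : ∀ g : G, g * t = t * g → g ∈ K := fun g hg => by
    obtain ⟨m, rfl⟩ := h.mem g hg
    exact hι m
  -- all involutions of the subgroup are conjugate in it
  have hTcard : Nat.card (sylT.map ι) = 16 := by
    rw [← Nat.card_congr (sylT.equivMapOfInjective ι h.inj).toEquiv,
      ← Nat.card_congr (Equiv.ofBijective (fun k => (⟨sylEl k, ⟨k, rfl⟩⟩ : sylT))
        ⟨fun i j hij => sylEl_facts.1 i j (congrArg Subtype.val hij), fun v => by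
          obtain ⟨k, hk⟩ := v.2
          exact ⟨k, Subtype.ext hk⟩⟩), Nat.card_fin]
  have hTK : sylT.map ι ≤ K := by rintro _ ⟨m, -, rfl⟩; exact hι m
  have hclass : ∀ y ∈ K, y * y = 1 → y ≠ 1 → ∃ k ∈ K, k * t * k⁻¹ = y := by
    intro y hy hy2 hy1
    have hTp : IsPGroup 2 ((sylT.map ι).subgroupOf K) :=
      (IsPGroup.of_card (n := 4) hTcard).of_equiv (Subgroup.subgroupOfEquivOfLe hTK).symm
    obtain ⟨P, hP⟩ := hTp.exists_le_sylow
    have hPT : (P : Subgroup K) = (sylT.map ι).subgroupOf K := by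
      refine (Subgroup.eq_of_le_of_card_ge hP ?_).symm
      obtain ⟨j, hj⟩ := IsPGroup.iff_card.mp P.2
      have hj4 : j ≤ 4 := by
        by_contra hj5
        refine h32 ((Nat.pow_dvd_pow 2 (show 5 ≤ j by omega)).trans ?_)
        rw [← hj]
        exact (Subgroup.card_subgroup_dvd_card _).trans (Subgroup.card_subgroup_dvd_card K)
      rw [hj, Nat.card_congr (Subgroup.subgroupOfEquivOfLe hTK).toEquiv, hTcard]
      exact Nat.pow_le_pow_right two_pos hj4
    have hyo : orderOf (⟨y, hy⟩ : K) = 2 := by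
      rw [Subgroup.orderOf_mk]; exact orderOf_eq_prime (by rw [pow_two, hy2]) hy1
    obtain ⟨Q, hQ⟩ := (IsPGroup.of_card (p := 2) (n := 1) (G := Subgroup.zpowers (⟨y, hy⟩ : K))
      (by rw [Nat.card_zpowers, hyo, pow_one])).exists_le_sylow
    obtain ⟨g, hg⟩ := MulAction.exists_smul_eq K Q P
    have hmem : g * ⟨y, hy⟩ * g⁻¹ ∈ (P : Subgroup K) := by
      rw [← hg, Sylow.coe_subgroup_smul]
      exact Subgroup.smul_mem_pointwise_smul _ (MulAut.conj g) _ (hQ (Subgroup.mem_zpowers _))
    rw [hPT, Subgroup.mem_subgroupOf] at hmem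
    obtain ⟨m, -, hm⟩ := hmem
    push_cast at hm
    have hm2 : m * m = 1 := h.inj (by
      rw [map_mul, hm, map_one,
        show (g : G) * y * (g : G)⁻¹ * ((g : G) * y * (g : G)⁻¹) = (g : G) * (y * y) * (g : G)⁻¹ by group,
        hy2, mul_one, mul_inv_cancel])
    have hm1 : m ≠ 1 := fun e => hy1 (by
      rw [e, map_one] at hm; exact conj_eq_one_iff.mp hm.symm)
    suffices ∃ k ∈ K, k * t * k⁻¹ = ι m by
      obtain ⟨k, hk, hkm⟩ := this
      refine ⟨(g : G)⁻¹ * k, mul_mem (inv_mem g.2) hk, ?_⟩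
      rw [show (g : G)⁻¹ * k * t * ((g : G)⁻¹ * k)⁻¹ = (g : G)⁻¹ * (k * t * k⁻¹) * g by group, hkm, hm]
      group
    obtain ⟨hr2, hr1⟩ : rM * rM = 1 ∧ rM ≠ 1 :=
      ⟨center_facts.2.2.2.2.1, center_facts.2.2.2.2.2.1⟩
    rcases invol_cases m.val (by rw [← Units.val_mul, hm2, Units.val_one]) with e | e | ⟨X, hX, e⟩
    · exact absurd (Units.ext e) hm1
    · exact ⟨1, one_mem _, by rw [show m = zM from Units.ext e, h.map_z]; group⟩
    rcases invol_cases rM.val (by rw [← Units.val_mul, hr2, Units.val_one]) with e' | e' | ⟨Y, hY, e'⟩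
    · exact absurd (Units.ext e') hr1
    · exact absurd (Units.ext e') frame_facts.2.2.2.2.2.2.2
    set X' := Matrix.GeneralLinearGroup.mkOfDetNeZero X hX
    set Y' := Matrix.GeneralLinearGroup.mkOfDetNeZero Y hY
    have e1 : X' * sM = m * X' := Units.ext e
    have e2 : Y' * sM = rM * Y' := Units.ext e'
    refine ⟨ι (X' * Y'⁻¹) * x, mul_mem (hι _) hx, ?_⟩
    rw [show ι (X' * Y'⁻¹) * x * t * (ι (X' * Y'⁻¹) * x)⁻¹ =
      ι (X' * Y'⁻¹) * (x * t * x⁻¹) * (ι (X' * Y'⁻¹))⁻¹ by group, hR.map_t, ← map_inv, ← map_mul,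
      ← map_mul]
    refine congrArg (fun v => ι v) ?_
    calc X' * Y'⁻¹ * rM * (X' * Y'⁻¹)⁻¹ = X' * (Y'⁻¹ * (rM * Y')) * X'⁻¹ := by group
      _ = X' * sM * X'⁻¹ := by rw [← e2, inv_mul_cancel_left]
      _ = m := by rw [e1, mul_inv_cancel_right]
  -- an involution fixes exactly one coset
  by_contra hne
  haveI := Fintype.ofFinite (G ⧸ K)
  have hnc : ¬ IsMulCommutative G := fun hc => by
    have : ∀ g : G, g ∈ K := fun g => hC g (hc.1.1 g t)
    exact hne (top_unique fun g _ => this g)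
  set σ := MulAction.toPermHom G (G ⧸ K) t with hσ
  have hσ2 : σ ^ 2 = 1 := by rw [hσ, ← map_pow, pow_two, htt, map_one]
  have hfix : ∀ c : G ⧸ K, σ c = c ↔ c = ((1 : G) : G ⧸ K) := by
    intro c
    obtain ⟨g, rfl⟩ := QuotientGroup.mk_surjective c
    rw [hσ, MulAction.toPermHom_apply, MulAction.toPerm_apply, MulAction.Quotient.smul_coe,
      QuotientGroup.eq, QuotientGroup.eq, smul_eq_mul, mul_one]
    constructor
    · intro hm
      rw [inv_mem_iff]
      have hm' : g⁻¹ * t * g ∈ K := by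
        have := inv_mem hm
        rwa [show ((t * g)⁻¹ * g)⁻¹ = g⁻¹ * t * g by group] at this
      obtain ⟨k, hk, hkt⟩ := hclass _ hm' (by
        rw [show g⁻¹ * t * g * (g⁻¹ * t * g) = g⁻¹ * (t * t) * g by group, htt, mul_one, inv_mul_cancel])
        (fun e => ht1 (by
          have : g⁻¹ * t * g⁻¹⁻¹ = 1 := by rw [inv_inv, e]
          exact conj_eq_one_iff.mp this))
      have hgk : g * k * t = t * (g * k) := by
        calc g * k * t = g * (k * t * k⁻¹) * k := by group
          _ = g * (g⁻¹ * t * g) * k := by rw [hkt]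
          _ = t * (g * k) := by group
      have := mul_mem (hC _ hgk) (inv_mem hk)
      rwa [mul_inv_cancel_right] at this
    · intro hg
      have hgK : g ∈ K := inv_mem_iff.mp hg
      exact mul_mem (inv_mem (mul_mem (hC t rfl) hgK)) hgK
  have hsupp : σ.support.card = K.index - 1 := by
    have e : σ.support = Finset.univ.erase ((1 : G) : G ⧸ K) := by
      ext c
      simp [Equiv.Perm.mem_support, hfix]
    rw [e, Finset.card_erase_of_mem (Finset.mem_univ _), Finset.card_univ,
      Subgroup.index_eq_card, Nat.card_eq_fintype_card]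
  have h4 := four_dvd_of_involution σ hσ2 (SylowToolkit.sign_eq_one hnc _ t)
  rw [hsupp] at h4
  -- divisibility
  have h9 : 144 ∣ Nat.card K := by
    refine (show Nat.Coprime 16 9 by norm_num).mul_dvd_of_dvd_of_dvd (hTcard ▸ Subgroup.card_dvd_of_le hTK) ?_
    obtain ⟨hp3, hp1, -, -, hpc, hp2⟩ := hR.planar
    generalize hp : x * ι U * x⁻¹ = p at hp3 hp1 hpc hp2
    have hpK : p ∈ K := hp ▸ mul_mem (mul_mem hx (hι U)) (inv_mem hx)
    set q := ι fM * p * (ι fM)⁻¹ with hq
    have hqK : q ∈ K := mul_mem (mul_mem (hι fM) hpK) (inv_mem (hι fM))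
    have hpo : orderOf p = 3 := orderOf_eq_prime (hp := ⟨by norm_num⟩) hp3 hp1
    have hqo : orderOf q = 3 := by
      rw [hq, show ι fM * p * (ι fM)⁻¹ = (MulAut.conj (ι fM)).toMonoidHom p from rfl,
        orderOf_injective _ (MulAut.conj (ι fM)).injective, hpo]
    let φ := MonoidHom.noncommCoprod (Subgroup.zpowers p).subtype (Subgroup.zpowers q).subtype (by
      rintro ⟨_, i, rfl⟩ ⟨_, j, rfl⟩
      exact (hpc.zpow_left i).zpow_right j)
    have hφ : Function.Injective φ := by
      rw [MonoidHom.noncommCoprod_injective]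
      refine ⟨Subtype.val_injective, Subtype.val_injective, ?_⟩
      rw [Subgroup.range_subtype, Subgroup.range_subtype, Subgroup.disjoint_def]
      intro v hv hv'
      by_contra hv1
      have hvo : orderOf v = 3 := ((Nat.dvd_prime (by norm_num : Nat.Prime 3)).mp (by
        rw [← hpo]
        obtain ⟨i, rfl⟩ := Subgroup.mem_zpowers_iff.mp hv
        exact orderOf_dvd_of_pow_eq_one (by
          rw [← zpow_natCast, ← zpow_mul, mul_comm, zpow_mul, zpow_natCast, pow_orderOf_eq_one,
            one_zpow]))).resolve_left (fun e => hv1 (orderOf_eq_one_iff.mp e))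
      have e1 : Subgroup.zpowers v = Subgroup.zpowers q := Subgroup.eq_of_le_of_card_ge
        (Subgroup.zpowers_le.mpr hv') (by rw [Nat.card_zpowers, Nat.card_zpowers, hvo, hqo])
      have hqp : q ∈ Subgroup.zpowers p := Subgroup.zpowers_le.mpr hv (e1 ▸ Subgroup.mem_zpowers q)
      have hc : Nat.card (Subgroup.zpowers p) = 3 := by rw [Nat.card_zpowers, hpo]
      have hq1 : q ≠ 1 := fun e => by rw [e, orderOf_one] at hqo; omega
      rcases eq_of_le_three hc (Subgroup.mem_zpowers p) hp1 hqp with e | e | e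
      · exact hq1 e
      · rw [e, ← hq, e] at hp2
        exact hp1 (mul_eq_left.mp hp2.symm)
      · rw [e, mul_inv_cancel, ← conj_inv, ← hq, e, inv_inv] at hp2
        exact hp1 hp2
    have hle : φ.range ≤ K := by
      rintro _ ⟨⟨a, b⟩, rfl⟩
      refine mul_mem ?_ ?_
      · exact Subgroup.zpowers_le.mpr hpK a.2
      · exact Subgroup.zpowers_le.mpr hqK b.2
    have hd := Subgroup.card_dvd_of_le hle
    rwa [← Nat.card_congr (MonoidHom.ofInjective hφ).toEquiv, Nat.card_prod, Nat.card_zpowers,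
      Nat.card_zpowers, hpo, hqo] at hd
  have hmul := K.card_mul_index
  rw [hN] at hmul
  obtain ⟨j, hj⟩ := h9
  rw [hj] at hmul
  have hidx1 : K.index ≠ 1 := fun e => hne (Subgroup.index_eq_one.mp e)
  have hidx5 : K.index ≠ 5 := fun e => by
    have := SylowToolkit.two_mul_card_dvd_factorial_index hnc hne
    rw [e, hN] at this
    norm_num at this
  have hi55 : K.index * j = 55 := by nlinarith
  have hile : K.index ≤ 55 := Nat.le_of_dvd (by norm_num) ⟨j, hi55.symm⟩
  have hid : K.index ∣ 55 := ⟨j, hi55.symm⟩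
  obtain ⟨k, hk⟩ := h4
  have : K.index = 4 * k + 1 := by
    have : K.index ≠ 0 := fun e => by rw [e] at hi55; omega
    omega
  have hk13 : k ≤ 13 := by omega
  interval_cases k <;> simp [this] at hid hidx1 hidx5 ⊢ <;> norm_num at hid

theorem card_small : EnumSmall.cert.n = 117 ∧ EnumBig.cert.n = 165 := by
  constructor <;> rfl

theorem Rel.bound (h : Hyp t ι) {U : M23} {x : G} (hR : Rel t ι U x) (hU : U = u₁M) :
    Nat.card (Subgroup.closure (Set.range ι ∪ {x})) ≤ 5616 := by
  subst hU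
  obtain ⟨-, h1, -, e1⟩ := root_relators
  have := (card_closure_le ι u₁M x (extraSmall :: baseRels) EnumSmall.facts EnumSmall.n_pos
    EnumSmall.node_zero EnumSmall.rows rfl rfl words_check.2.1 words_check.2.2.2 generated.2 (by
      intro w hw
      rcases List.mem_cons.mp hw with rfl | hw
      · obtain ⟨l0, l1, l2, l3, l4, l5, -, -⟩ := letters_eq ι u₁M x
        simp only [extraSmall, gword, List.map_cons, List.map_nil, List.prod_cons, List.prod_nil,
          mul_one, l0, l1, l3, l4, l5, ← mul_assoc, ← map_inv, ← map_mul]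
        rw [← map_one ι]; exact congrArg ι e1
      · exact hR.base h h1 w hw)).2
  rwa [card_small.1] at this

theorem Rel.big_rels (h : Hyp t ι) {x : G} (hR : Rel t ι u₀M x) :
    ∀ w ∈ extraBig :: baseRels, gword (letters ι u₀M x) w = 1 := by
  obtain ⟨h0, -, e0, -⟩ := root_relators
  intro w hw
  rcases List.mem_cons.mp hw with rfl | hw
  · obtain ⟨l0, l1, l2, l3, l4, l5, -, -⟩ := letters_eq ι u₀M x
    simp only [extraBig, gword, List.map_cons, List.map_nil, List.prod_cons, List.prod_nil,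
      mul_one, l0, l1, l3, l4, l5, ← mul_assoc, ← map_inv, ← map_mul]
    rw [← map_one ι]; exact congrArg ι e0
  · exact hR.base h h0 w hw

/-- Uniqueness at order 7920. -/
theorem nonempty_mulEquiv {M : Type*} [Group M] [Finite M] [IsSimpleGroup G] [IsSimpleGroup M]
    {t' : M} {ι' : M23 →* M} (h : Hyp t ι) (h' : Hyp t' ι') (hN : Nat.card G = 7920)
    (hN' : Nat.card M = 7920) : Nonempty (G ≃* M) := by
  obtain ⟨j₁, U₁, x₁, k₁, hU₁, hR₁⟩ := exists_rel h hN
  obtain ⟨j₂, U₂, x₂, k₂, hU₂, hR₂⟩ := exists_rel h' hN'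
  have htop₁ := hR₁.closure_eq_top k₁ hN
  have htop₂ := hR₂.closure_eq_top k₂ hN'
  replace hU₁ : U₁ = u₀M := hU₁.resolve_right fun e => by
    have := hR₁.bound k₁ e
    rw [htop₁, Subgroup.card_top, hN] at this
    omega
  replace hU₂ : U₂ = u₀M := hU₂.resolve_right fun e => by
    have := hR₂.bound k₂ e
    rw [htop₂, Subgroup.card_top, hN'] at this
    omega
  subst hU₁ hU₂
  set j := j₁.prod j₂ with hj
  set x : G × M := (x₁, x₂) with hx
  have hlet : ∀ i, letters j u₀M x i = (letters j₁ u₀M x₁ i, letters j₂ u₀M x₂ i) := by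
    intro i
    have key : ∀ n : ℕ, ([j fM, j rM, j u₀M, x][n]?).getD 1 =
        ((([j₁ fM, j₁ rM, j₁ u₀M, x₁][n]?).getD 1), (([j₂ fM, j₂ rM, j₂ u₀M, x₂][n]?).getD 1)) := by
      intro n
      match n with
      | 0 | 1 | 2 | 3 => rfl
      | _ + 4 => rfl
    simp only [letters, key]
    split_ifs <;> rfl
  have hrels : ∀ w ∈ extraBig :: baseRels, gword (letters j u₀M x) w = 1 := by
    intro w hw
    refine Prod.ext ?_ ?_
    · change (MonoidHom.fst G M) _ = _
      rw [gword_map]
      simp only [MonoidHom.coe_fst, hlet]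
      exact hR₁.big_rels k₁ w hw
    · change (MonoidHom.snd G M) _ = _
      rw [gword_map]
      simp only [MonoidHom.coe_snd, hlet]
      exact hR₂.big_rels k₂ w hw
  obtain ⟨hfin, hle⟩ := card_closure_le j u₀M x _ EnumBig.facts EnumBig.n_pos EnumBig.node_zero
    EnumBig.rows rfl rfl words_check.1 words_check.2.2.1 generated.1 hrels
  rw [card_small.2] at hle
  set H := Subgroup.closure (Set.range j ∪ {x}) with hH
  haveI := hfin
  have hmap₁ : H.map (MonoidHom.fst G M) = ⊤ := by
    rw [hH, MonoidHom.map_closure, Set.image_union, Set.image_singleton, ← Set.range_comp]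
    exact htop₁
  have hmap₂ : H.map (MonoidHom.snd G M) = ⊤ := by
    rw [hH, MonoidHom.map_closure, Set.image_union, Set.image_singleton, ← Set.range_comp]
    exact htop₂
  let p₁ : H →* G := (MonoidHom.fst G M).comp H.subtype
  let p₂ : H →* M := (MonoidHom.snd G M).comp H.subtype
  have hs₁ : Function.Surjective p₁ := fun g => by
    have : g ∈ H.map (MonoidHom.fst G M) := hmap₁.symm ▸ Subgroup.mem_top g
    obtain ⟨v, hv, e⟩ := this
    exact ⟨⟨v, hv⟩, e⟩
  have hs₂ : Function.Surjective p₂ := fun g => by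
    have : g ∈ H.map (MonoidHom.snd G M) := hmap₂.symm ▸ Subgroup.mem_top g
    obtain ⟨v, hv, e⟩ := this
    exact ⟨⟨v, hv⟩, e⟩
  have hc : Nat.card H = 7920 := le_antisymm hle (hN ▸ Nat.card_le_card_of_surjective p₁ hs₁)
  exact ⟨(MulEquiv.ofBijective p₁ ((Nat.bijective_iff_surjective_and_card _).mpr ⟨hs₁, by rw [hc, hN]⟩)).symm.trans
    (MulEquiv.ofBijective p₂ ((Nat.bijective_iff_surjective_and_card _).mpr ⟨hs₂, by rw [hc, hN']⟩))⟩

theorem squareDodecad_facts : Spor.squareDodecad ∈ Cfsg.dodecads ∧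
    (some 0 : GolayPt) ∈ Spor.squareDodecad :=
  ⟨CfsgLib.Mathieu.squareDodecad_mem, by decide +kernel⟩

omit [Finite G] in
theorem isoM11 [Finite G] [IsSimpleGroup G] (h : Hyp t ι) (hN : Nat.card G = 7920) :
    Cfsg.Spor.IsoM11 G := by
  haveI := CfsgLib.Mathieu.isSimpleGroup_M11
  have hM : Nat.card Spor.M11 = 7920 := CfsgLib.Mathieu.card_M11
  haveI : Finite Spor.M11 := Nat.finite_of_card_ne_zero (by omega)
  obtain ⟨z, hz⟩ := exists_prime_orderOf_dvd_card' (G := Spor.M11) 2 (hp := ⟨Nat.prime_two⟩) (by rw [hM]; norm_num)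
  let S := MulAction.stabilizer Cfsg.M24 Spor.squareDodecad ⊓
    MulAction.stabilizer Cfsg.M24 (some 0 : GolayPt)
  have hSM : S.map (Cfsg.M24).subtype = Spor.M11 := by
    ext g
    simp only [S, Spor.M11, Spor.M12, Subgroup.mem_map, Subgroup.mem_inf, MulAction.mem_stabilizer_iff]
    constructor
    · rintro ⟨v, ⟨h1, h2⟩, rfl⟩
      exact ⟨⟨v.2, h1⟩, h2⟩
    · rintro ⟨⟨h0, h1⟩, h2⟩
      exact ⟨⟨g, h0⟩, ⟨h1, h2⟩, rfl⟩
  let ψ : S ≃* Spor.M11 :=
    (S.equivMapOfInjective _ (Cfsg.M24).subtype_injective).trans (MulEquiv.subgroupCongr hSM)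
  obtain ⟨e⟩ := Cfsg.Agent.S1603.result _ squareDodecad_facts.1 _ squareDodecad_facts.2 (ψ.symm z)
    (by rw [← hz]; exact orderOf_injective ψ.symm.toMonoidHom ψ.symm.injective z)
  have hcz : (Subgroup.centralizer ({ψ.symm z} : Set S)).map ψ.toMonoidHom =
      Subgroup.centralizer ({z} : Set Spor.M11) := by
    ext v
    simp only [Subgroup.mem_map, Subgroup.mem_centralizer_singleton_iff, MulEquiv.coe_toMonoidHom]
    constructor
    · rintro ⟨w, hw, rfl⟩
      have := congrArg ψ hw
      simpa using this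
    · intro hv
      exact ⟨ψ.symm v, by rw [← map_mul, ← map_mul, hv], by simp⟩
  have e' : Subgroup.centralizer ({z} : Set Spor.M11) ≃* M23 :=
    ((MulEquiv.subgroupCongr hcz.symm).trans (ψ.subgroupMap _).symm).trans e
  have hidx : ∀ M : Subgroup Spor.M11, M.Normal → M.index ≠ 2 := by
    intro M hM' h2
    rcases hM'.eq_bot_or_eq_top with rfl | rfl
    · rw [Subgroup.index_bot, hM] at h2; omega
    · rw [Subgroup.index_top] at h2; omega
  obtain ⟨ι', h'⟩ := exists_hyp z hz e' hidx
  exact nonempty_mulEquiv h h' hN hM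

end CfsgLib.GLTwoThree
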