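import Cfsg.Agent.GLTwoThree.ThreeLocal
import Mathlib

/-!
A group with an involution centralizer GL(2,3), no normal subgroup of index two and order not
divisible by 32 is simple.
-/

set_option autoImplicit false

namespace CfsgLib.GLTwoThree

open Cfsg CfsgLib.ExtremelyClosed

universe u

variable {G : Type u} [Group G] [Finite G] {t : G} {ι : M23 →* G}

theorem generation_facts : fM = swM * sM * rM ∧ uM = sM * ⟨!![1, 1; 0, 2], !![1, 1; 0, 2],
    by decide, by decide⟩ ∧ swM * swM = 1 ∧ swM ≠ 1 ∧ rM * rM = 1 ∧ rM ≠ 1 ∧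
    (∃ v : M23, v * v = 1 ∧ v ≠ 1 ∧ uM = sM * v) ∧
    (uM * lM) ^ 4 = 1 ∧ uM * lM ≠ 1 := by
  refine ⟨?_, ?_, ?_, ?_, ?_, ?_,
    ⟨⟨!![1, 1; 0, 2], !![1, 1; 0, 2], by decide, by decide⟩, ?_, ?_, ?_⟩, ?_, ?_⟩ <;> decide +kernel

theorem Hyp.isSimpleGroup (h : Hyp t ι) (h32 : ¬ 32 ∣ Nat.card G) : IsSimpleGroup G := by
  classical
  haveI : Fact (Nat.Prime 2) := ⟨Nat.prime_two⟩
  obtain ⟨htt, ht1⟩ := orderOf_eq h
  haveI : Nontrivial G := ⟨⟨t, 1, ht1⟩⟩
  refine ⟨fun N hN => ?_⟩
  haveI := hN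
  by_cases hev : 2 ∣ Nat.card N
  · right
    obtain ⟨⟨z, hzN⟩, hz⟩ := exists_prime_orderOf_dvd_card' (G := N) 2 hev
    rw [Subgroup.orderOf_mk] at hz
    have hz2 : z * z = 1 := by rw [← pow_two, ← hz, pow_orderOf_eq_one]
    have hz1 : z ≠ 1 := fun e => by rw [e, orderOf_one] at hz; omega
    have htN : t ∈ N := by
      obtain ⟨g, hg⟩ := isConj_iff.mp (h.isConj_of_invol h32 hz2 hz1).symm
      exact hg ▸ hN.conj_mem z hzN g
    have hinv : ∀ m : M23, m * m = 1 → m ≠ 1 → ι m ∈ N := fun m h2 h1 => by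
      obtain ⟨g, hg⟩ := isConj_iff.mp (h.isConj_invol h2 h1)
      exact hg ▸ hN.conj_mem t htN g
    obtain ⟨hf, -, hw2, hw1, hr2, hr1, ⟨v, hv2, hv1, hu⟩, -, -⟩ := generation_facts
    have hfN : ι fM ∈ N := by
      rw [hf, map_mul, map_mul]
      exact mul_mem (mul_mem (hinv _ hw2 hw1) (hinv _ facts.2.2.2.2.1 root_facts.2.2.2.2.2.2.2.2.1))
        (hinv _ hr2 hr1)
    have huN : ι uM ∈ N := by
      rw [hu, map_mul]
      exact mul_mem (hinv _ facts.2.2.2.2.1 root_facts.2.2.2.2.2.2.2.2.1) (hinv _ hv2 hv1)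
    set T : Subgroup G := sylT.map ι with hT
    have hTcard : Nat.card T = 16 := by
      rw [← Nat.card_congr (sylT.equivMapOfInjective ι h.inj).toEquiv,
        ← Nat.card_congr (Equiv.ofBijective (fun k => (⟨sylEl k, ⟨k, rfl⟩⟩ : sylT))
          ⟨fun i j hij => sylEl_facts.1 i j (congrArg Subtype.val hij), fun v => by
            obtain ⟨k, hk⟩ := v.2
            exact ⟨k, Subtype.ext hk⟩⟩), Nat.card_fin]
    have hTN : T ≤ N := by
      rintro _ ⟨_, ⟨k, rfl⟩, rfl⟩
      rw [sylEl, map_mul, map_pow, map_pow]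
      exact mul_mem (pow_mem hfN _) (pow_mem (hinv _ hr2 hr1) _)
    have hC : Subgroup.centralizer ({t} : Set G) ≤ N := by
      have h48 : Nat.card (Subgroup.centralizer ({t} : Set G)) = 48 := by
        rw [← h.map_z, h.card_centralizer zM 1 (pow_one _), card_comm, card_mats.1]
      have hTC : T ≤ Subgroup.centralizer ({t} : Set G) := by
        rintro _ ⟨m, -, rfl⟩
        exact Subgroup.mem_centralizer_singleton_iff.mpr (h.comm_t m)
      have huC : ι uM ∈ Subgroup.centralizer ({t} : Set G) :=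
        Subgroup.mem_centralizer_singleton_iff.mpr (h.comm_t uM)
      suffices e : N ⊓ Subgroup.centralizer ({t} : Set G) = Subgroup.centralizer ({t} : Set G) from
        e ▸ inf_le_left
      refine Subgroup.eq_of_le_of_card_ge inf_le_right (h48.symm ▸ Nat.le_of_dvd Nat.card_pos ?_)
      refine (show Nat.Coprime 16 3 by norm_num).mul_dvd_of_dvd_of_dvd
        (hTcard ▸ Subgroup.card_dvd_of_le (le_inf hTN hTC)) ?_
      haveI : Fact (Nat.Prime 3) := ⟨by norm_num⟩
      rw [← orderOf_eq_prime (p := 3) (x := ι uM) (by rw [← map_pow, root_facts.1, map_one])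
        (fun e => root_facts.2.1 (h.inj (e.trans (map_one ι).symm)))]
      exact Subgroup.orderOf_dvd_natCard _ (show ι uM ∈ N ⊓ _ from ⟨huN, huC⟩)
    -- the Frattini argument
    have hTp : IsPGroup 2 (T.subgroupOf N) :=
      (IsPGroup.of_card (n := 4) hTcard).of_equiv (Subgroup.subgroupOfEquivOfLe hTN).symm
    obtain ⟨P, hP⟩ := hTp.exists_le_sylow
    have hPT : (P : Subgroup N) = T.subgroupOf N := by
      refine (Subgroup.eq_of_le_of_card_ge hP ?_).symm
      obtain ⟨k, hk⟩ := IsPGroup.iff_card.mp P.2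
      have hk4 : k ≤ 4 := by
        by_contra hk5
        refine h32 ((Nat.pow_dvd_pow 2 (show 5 ≤ k by omega)).trans ?_)
        rw [← hk]
        exact (Subgroup.card_subgroup_dvd_card _).trans (Subgroup.card_subgroup_dvd_card N)
      rw [hk, Nat.card_congr (Subgroup.subgroupOfEquivOfLe hTN).toEquiv, hTcard]
      exact Nat.pow_le_pow_right two_pos hk4
    have hfr := Sylow.normalizer_sup_eq_top P
    rw [hPT, Subgroup.subgroupOf_map_subtype, inf_of_le_left hTN] at hfr
    have hnorm : Subgroup.normalizer (T : Set G) ≤ N := by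
      intro g hg
      have htT : t ∈ T := ⟨zM, ⟨4, center_facts.2.2.2.2.2.2.2.2.2.2.2⟩, h.map_z⟩
      obtain ⟨_, ⟨i, rfl⟩, hi⟩ := (Subgroup.mem_normalizer_iff.mp hg t).mp htT
      refine hC (Subgroup.mem_centralizer_singleton_iff.mpr ?_)
      have hci : ∀ j, sylEl i * sylEl j = sylEl j * sylEl i := by
        intro j
        have hj : g⁻¹ * ι (sylEl j) * g ∈ T :=
          (Subgroup.mem_normalizer_iff.mp hg _).mpr (by
            rw [show g * (g⁻¹ * ι (sylEl j) * g) * g⁻¹ = ι (sylEl j) by group]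
            exact ⟨_, ⟨j, rfl⟩, rfl⟩)
        obtain ⟨m, -, hm⟩ := hj
        have hc := h.comm_t m
        rw [hm] at hc
        refine h.inj ?_
        rw [map_mul, map_mul, hi]
        calc g * t * g⁻¹ * ι (sylEl j) = g * (t * (g⁻¹ * ι (sylEl j) * g)) * g⁻¹ := by group
          _ = g * ((g⁻¹ * ι (sylEl j) * g) * t) * g⁻¹ := by rw [← hc]
          _ = ι (sylEl j) * (g * t * g⁻¹) := by group
      have hsq : sylEl i * sylEl i = 1 := h.inj (by
        rw [map_mul, hi, map_one, show g * t * g⁻¹ * (g * t * g⁻¹) = g * (t * t) * g⁻¹ by group, htt,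
          mul_one, mul_inv_cancel])
      rcases center_facts.2.1 i hsq (hci 1) (hci 8) with e | e
      · refine absurd ?_ ht1
        rw [e, map_one] at hi
        exact conj_eq_one_iff.mp hi.symm
      · rw [e, h.map_z] at hi
        exact mul_inv_eq_iff_eq_mul.mp hi.symm
    exact top_unique (hfr ▸ sup_le hnorm le_rfl)
  · left
    have hodd : Odd (Nat.card N) := Nat.not_even_iff_odd.mp (fun e => hev e.two_dvd)
    have hno : ∀ {y : G}, IsConj t y → ∀ x ∈ N, Commute x y → x = 1 := by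
      intro y hy x hx hxy
      obtain ⟨ι', h'⟩ := h.of_isConj hy
      by_contra hx1
      have h3 := h'.odd_cube hxy (hodd.of_dvd_nat (Subgroup.orderOf_dvd_natCard N hx))
      obtain ⟨g, -, hg⟩ := h'.conj_cube hxy h3 hx1
      have hu : ι' uM ∈ N := by
        have := hN.conj_mem x hx g⁻¹
        rwa [← hg, show g⁻¹ * (g * ι' uM * g⁻¹) * g⁻¹⁻¹ = ι' uM by group] at this
      have hl : ι' lM ∈ N := by
        rw [← root_facts.2.2.2.2.2.1, map_mul, map_mul, map_inv]
        exact hN.conj_mem _ hu _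
      have hmem : ι' (uM * lM) ∈ N := by rw [map_mul]; exact mul_mem hu hl
      have h4 := generation_facts.2.2.2.2.2.2.2
      have ho : orderOf (ι' (uM * lM)) ∣ 2 ^ 2 :=
        orderOf_dvd_of_pow_eq_one (by rw [← map_pow, show 2 ^ 2 = 4 from rfl, h4.1, map_one])
      have := Nat.Coprime.eq_one_of_dvd (Nat.Coprime.pow_right 2 (Nat.coprime_two_right.mpr
        (hodd.of_dvd_nat (Subgroup.orderOf_dvd_natCard N hmem)))) ho
      exact h4.2 (h'.inj ((orderOf_eq_one_iff.mp this).trans (map_one ι').symm))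
    rw [Subgroup.eq_bot_iff_forall]
    intro x hx
    obtain ⟨hcs, hcts⟩ := Core.conj_other h
    obtain ⟨a, ha, ha', b, hb, hb', c, hc, hc', e⟩ := exists_three_factor hodd (a := t) (b := ι sM)
      (h.comm_t sM).symm htt (by rw [← map_mul, facts.2.2.2.2.1, map_one])
      (fun v hv => hN.conj_mem v hv t) (fun v hv => hN.conj_mem v hv _) hx
    rw [e, hno (IsConj.refl t) a ha ha'.symm, hno hcs b hb hb'.symm, hno hcts c hc hc'.symm, one_mul,
      one_mul]

end CfsgLib.GLTwoThree
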